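import Cfsg.Agent.H902.Facts

/-!
# `2 d q^N ≤ num` for the orders of the groups of Lie type (S4907, task 4101; helper615)
-/

set_option autoImplicit false
set_option linter.style.longLine false

namespace Cfsg.Agent.H615.DM

open Finset Cfsg.Agent.H902.Art

theorem sub_one_ge {q n : ℕ} (hq : 2 ≤ q) : q ^ n ≤ q ^ (n + 1) - 1 := by
  have h1 : 1 ≤ q ^ n := Nat.one_le_pow _ _ (by omega)
  have h2 : q ^ n * 2 ≤ q ^ (n + 1) := by
    rw [pow_succ]
    exact Nat.mul_le_mul_left _ hq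
  omega

theorem add_one_ge {q n : ℕ} (hq : 2 ≤ q) : q ^ n ≤ q ^ (n + 1) + 1 := by
  have := sub_one_ge (n := n) hq
  omega

theorem three_sub {q d : ℕ} (hq : 2 ≤ q) (hd : 2 ≤ d) : 3 * q ^ d ≤ 4 * (q ^ d - 1) := by
  have h1 : 2 ^ 2 ≤ q ^ d := (Nat.pow_le_pow_left hq 2).trans (Nat.pow_le_pow_right (by omega) hd)
  omega

theorem three_add {q d : ℕ} : 3 * q ^ d ≤ 4 * (q ^ d + 1) := by
  omega

theorem list_ge {q : ℕ} : ∀ l : List (ℕ × ℕ), (∀ x ∈ l, 3 * q ^ x.2 ≤ 4 * x.1) →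
    3 ^ l.length * q ^ (l.map Prod.snd).sum ≤ 4 ^ l.length * (l.map Prod.fst).prod := by
  intro l
  induction l with
  | nil => intro _; simp
  | cons a l ih =>
    intro h
    have h1 := h a (by simp)
    have h2 := ih fun x hx => h x (by simp [hx])
    rw [List.length_cons, List.map_cons, List.map_cons, List.sum_cons, List.prod_cons, pow_succ, pow_succ, pow_add]
    calc 3 ^ l.length * 3 * (q ^ a.2 * q ^ (l.map Prod.snd).sum) = (3 * q ^ a.2) * (3 ^ l.length * q ^ (l.map Prod.snd).sum) := by ring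
      _ ≤ (4 * a.1) * (4 ^ l.length * (l.map Prod.fst).prod) := Nat.mul_le_mul h1 h2
      _ = _ := by ring

/-! ### linear groups -/

theorem ge_L {q : ℕ} (hq : 2 ≤ q) (k : ℕ) :
    2 * (q - 1) * q ^ ((k + 3) * (k + 2) / 2) ≤ ∏ i ∈ range (k + 2), (q ^ (i + 2) - 1) := by
  induction k with
  | zero =>
    simp only [zero_add, prod_range_succ, prod_range_zero, one_mul]
    norm_num
    obtain ⟨t, rfl⟩ := Nat.exists_eq_add_of_le' hq
    have h1 : t + 2 - 1 = t + 1 := rfl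
    have h2 : (t + 2) ^ 2 - 1 = (t + 1) * (t + 3) := by
      have : (t + 2) ^ 2 = (t + 1) * (t + 3) + 1 := by ring
      omega
    have h3 : (t + 2) ^ 3 - 1 = t ^ 3 + 6 * t ^ 2 + 12 * t + 7 := by
      have : (t + 2) ^ 3 = t ^ 3 + 6 * t ^ 2 + 12 * t + 7 + 1 := by ring
      omega
    rw [h1, h2, h3]
    have h4 : 2 * (t + 2) ^ 3 ≤ (t + 3) * (t ^ 3 + 6 * t ^ 2 + 12 * t + 7) := by
      ring_nf
      nlinarith [Nat.zero_le t, Nat.zero_le (t ^ 2), Nat.zero_le (t ^ 3), Nat.zero_le (t ^ 4)]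
    calc 2 * (t + 1) * (t + 2) ^ 3 = (t + 1) * (2 * (t + 2) ^ 3) := by ring
      _ ≤ (t + 1) * ((t + 3) * (t ^ 3 + 6 * t ^ 2 + 12 * t + 7)) := Nat.mul_le_mul_left _ h4
      _ = _ := by ring
  | succ k ih =>
    have h1 : (k + 1 + 3) * (k + 1 + 2) / 2 = (k + 3) * (k + 2) / 2 + (k + 3) := by
      have : (k + 1 + 3) * (k + 1 + 2) = (k + 3) * (k + 2) + (k + 3) * 2 := by ring
      rw [this, Nat.add_mul_div_right _ _ (by norm_num)]
    rw [h1, pow_add, ← mul_assoc, prod_range_succ]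
    exact Nat.mul_le_mul ih (sub_one_ge hq)

theorem ge_U {q : ℕ} (hq : 2 ≤ q) (s : ℕ)
    (h0 : 2 * (q + 1) * q ^ (s * (s - 1) / 2) ≤ ∏ i ∈ range (s - 1), (if Even i then q ^ (i + 2) - 1 else q ^ (i + 2) + 1))
    (hs : 1 ≤ s) (k : ℕ) :
    2 * (q + 1) * q ^ ((k + s) * (k + s - 1) / 2) ≤ ∏ i ∈ range (k + s - 1), (if Even i then q ^ (i + 2) - 1 else q ^ (i + 2) + 1) := by
  induction k with
  | zero => simpa using h0
  | succ k ih =>
    obtain ⟨s, rfl⟩ := Nat.exists_eq_add_of_le' hs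
    have e1 : k + 1 + (s + 1) - 1 = k + s + 1 := by omega
    have e2 : k + (s + 1) - 1 = k + s := by omega
    rw [e2] at ih
    rw [e1]
    have h1 : (k + 1 + (s + 1)) * (k + s + 1) / 2 = (k + (s + 1)) * (k + s) / 2 + (k + s + 1) := by
      have : (k + 1 + (s + 1)) * (k + s + 1) = (k + (s + 1)) * (k + s) + (k + s + 1) * 2 := by ring
      rw [this, Nat.add_mul_div_right _ _ (by norm_num)]
    rw [h1, pow_add, ← mul_assoc, prod_range_succ]
    refine Nat.mul_le_mul ih ?_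
    split_ifs
    · exact sub_one_ge hq
    · exact add_one_ge hq

theorem ge_U3 {q : ℕ} (hq : 3 ≤ q) :
    2 * (q + 1) * q ^ (3 * (3 - 1) / 2) ≤ ∏ i ∈ range (3 - 1), (if Even i then q ^ (i + 2) - 1 else q ^ (i + 2) + 1) := by
  simp only [prod_range_succ, prod_range_zero, one_mul, Nat.reduceSub, Nat.reduceMul, Nat.reduceDiv, Even.zero, if_true]
  rw [if_neg (by decide)]
  norm_num
  obtain ⟨t, rfl⟩ := Nat.exists_eq_add_of_le' hq
  have h2 : (t + 3) ^ 2 - 1 = (t + 4) * (t + 2) := by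
    have : (t + 3) ^ 2 = (t + 4) * (t + 2) + 1 := by ring
    omega
  rw [h2]
  have h4 : 2 * (t + 3) ^ 3 ≤ (t + 2) * ((t + 3) ^ 3 + 1) := by
    nlinarith [Nat.zero_le (t * (t + 3) ^ 3)]
  calc 2 * (t + 3 + 1) * (t + 3) ^ 3 = (t + 4) * (2 * (t + 3) ^ 3) := by ring
    _ ≤ (t + 4) * ((t + 2) * ((t + 3) ^ 3 + 1)) := Nat.mul_le_mul_left _ h4
    _ = _ := by ring

theorem ge_C {q : ℕ} (hq : 2 ≤ q) (s c : ℕ) (h0 : c * q ^ (s ^ 2) ≤ ∏ i ∈ range s, (q ^ (2 * (i + 1)) - 1)) (k : ℕ) :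
    c * q ^ ((k + s) ^ 2) ≤ ∏ i ∈ range (k + s), (q ^ (2 * (i + 1)) - 1) := by
  induction k with
  | zero => simpa using h0
  | succ k ih =>
    have h1 : (k + 1 + s) ^ 2 = (k + s) ^ 2 + (2 * (k + s) + 1) := by ring
    rw [h1, pow_add, ← mul_assoc, show k + 1 + s = k + s + 1 by ring, prod_range_succ]
    refine Nat.mul_le_mul ih ?_
    exact sub_one_ge hq

/-- `∏ (q^{2i} - 1) ≥ (2/3) q^{k(k+1)}` -/
theorem ge_D {q : ℕ} (hq : 2 ≤ q) (k : ℕ) :
    q ^ ((k + 1) * (k + 2)) * (2 * q ^ (2 * (k + 1)) + 1) ≤ 3 * q ^ (2 * (k + 1)) * ∏ i ∈ range (k + 1), (q ^ (2 * (i + 1)) - 1) := by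
  induction k with
  | zero =>
    simp only [zero_add, prod_range_succ, prod_range_zero, one_mul, mul_one]
    have h1 : 2 ^ 2 ≤ q ^ 2 := Nat.pow_le_pow_left hq 2
    obtain ⟨t, ht⟩ := Nat.exists_eq_add_of_le' h1
    rw [ht]
    have : t + 2 ^ 2 - 1 = t + 3 := rfl
    rw [this]
    nlinarith
  | succ k ih =>
    rw [prod_range_succ]
    set Pk := ∏ i ∈ range (k + 1), (q ^ (2 * (i + 1)) - 1) with hPk
    set Q := q ^ (2 * (k + 1)) with hQ
    have hQ4 : 4 ≤ Q := by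
      have h1 : 2 ^ 2 ≤ q ^ 2 := Nat.pow_le_pow_left hq 2
      have h2 : q ^ 2 ≤ q ^ (2 * (k + 1)) := Nat.pow_le_pow_right (by omega) (by omega)
      omega
    have e1 : q ^ (2 * (k + 1 + 1)) = q ^ 2 * Q := by rw [hQ, ← pow_add]; congr 1; ring
    have e2 : q ^ ((k + 1 + 1) * (k + 1 + 2)) = q ^ ((k + 1) * (k + 2)) * (q ^ 2 * Q) := by
      rw [hQ, ← pow_add, ← pow_add]; congr 1; ring
    rw [e1, e2]
    have hq2 : 4 ≤ q ^ 2 := by
      have h1 : 2 ^ 2 ≤ q ^ 2 := Nat.pow_le_pow_left hq 2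
      omega
    have h3 : Q * (2 * (q ^ 2 * Q) + 1) ≤ (q ^ 2 * Q - 1) * (2 * Q + 1) := by
      obtain ⟨t, ht⟩ := Nat.exists_eq_add_of_le' hq2
      rw [ht]
      obtain ⟨u, hu⟩ := Nat.exists_eq_add_of_le' hQ4
      have h5 : (t + 4) * Q - 1 + 1 = (t + 4) * Q := by
        have : 1 ≤ (t + 4) * Q := by nlinarith
        omega
      set w := (t + 4) * Q - 1 with hw
      rw [← h5]
      have h6 : 3 * Q + 1 ≤ (t + 4) * Q := by nlinarith
      have h7 : 3 * Q ≤ w := by omega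
      nlinarith
    calc q ^ ((k + 1) * (k + 2)) * (q ^ 2 * Q) * (2 * (q ^ 2 * Q) + 1)
        = q ^ ((k + 1) * (k + 2)) * q ^ 2 * (Q * (2 * (q ^ 2 * Q) + 1)) := by ring
      _ ≤ q ^ ((k + 1) * (k + 2)) * q ^ 2 * ((q ^ 2 * Q - 1) * (2 * Q + 1)) := Nat.mul_le_mul_left _ h3
      _ = q ^ 2 * (q ^ 2 * Q - 1) * (q ^ ((k + 1) * (k + 2)) * (2 * Q + 1)) := by ring
      _ ≤ q ^ 2 * (q ^ 2 * Q - 1) * (3 * Q * Pk) := Nat.mul_le_mul_left _ ih
      _ = 3 * (q ^ 2 * Q) * (Pk * (q ^ 2 * Q - 1)) := by ring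

theorem ge_D' {q : ℕ} (hq : 2 ≤ q) (k : ℕ) :
    2 * q ^ ((k + 1) * (k + 2)) ≤ 3 * ∏ i ∈ range (k + 1), (q ^ (2 * (i + 1)) - 1) := by
  have h := ge_D hq k
  have hpos : 0 < q ^ (2 * (k + 1)) := pow_pos (by omega) _
  refine Nat.le_of_mul_le_mul_left ?_ hpos
  generalize q ^ (2 * (k + 1)) = Q at *
  generalize q ^ ((k + 1) * (k + 2)) = N at *
  generalize ∏ i ∈ range (k + 1), (q ^ (2 * (i + 1)) - 1) = Pk at *
  nlinarith


theorem gcd_le_left {a b : ℕ} (ha : 0 < a) : Nat.gcd a b ≤ a := Nat.le_of_dvd ha (Nat.gcd_dvd_left _ _)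
theorem gcd_le_right {a b : ℕ} (hb : 0 < b) : Nat.gcd a b ≤ b := Nat.le_of_dvd hb (Nat.gcd_dvd_right _ _)

theorem fin_ge {q N r s c a : ℕ} (hq : 2 ≤ q) (h : 3 ^ r * (N * q ^ s) ≤ 4 ^ r * a) (hc : 4 ^ r * c ≤ 3 ^ r * 2 ^ s) :
    c * N ≤ a := by
  have h1 : 2 ^ s ≤ q ^ s := Nat.pow_le_pow_left hq s
  refine Nat.le_of_mul_le_mul_left ?_ (show 0 < 4 ^ r by positivity)
  calc 4 ^ r * (c * N) = (4 ^ r * c) * N := by ring
    _ ≤ (3 ^ r * 2 ^ s) * N := Nat.mul_le_mul_right _ hc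
    _ ≤ (3 ^ r * q ^ s) * N := Nat.mul_le_mul_right _ (Nat.mul_le_mul_left _ h1)
    _ = 3 ^ r * (N * q ^ s) := by ring
    _ ≤ _ := h

theorem num_ge {X : Sh} {p f M : ℕ} (h : Real X p f M) :
    2 * dd X (p ^ f) * (p ^ f) ^ NN X ≤ num X (p ^ f) := by
  have hq := h.q_ge
  have hok := h.ok
  set q := p ^ f with hqdef
  cases X with
  | L n =>
    obtain ⟨hn, hn2⟩ := hok
    by_cases h2 : n = 2
    · subst h2
      have hq4 := hn2 rfl
      show 2 * Nat.gcd 2 (q - 1) * q ^ 1 ≤ ∏ i ∈ range 1, (q ^ (i + 2) - 1)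
      rw [prod_range_one, zero_add, pow_one]
      rcases Nat.lt_or_ge q 5 with h5 | h5
      · have : q = 4 := by
          have : 4 ≤ q := hq4
          omega
        rw [this]
        decide
      · have h6 : Nat.gcd 2 (q - 1) ≤ 2 := gcd_le_left (by norm_num)
        have h7 : 2 * Nat.gcd 2 (q - 1) * q ≤ 4 * q := Nat.mul_le_mul_right _ (by omega)
        have h8 : 4 * q + 1 ≤ q ^ 2 := by nlinarith
        omega
    · obtain ⟨k, rfl⟩ := Nat.exists_eq_add_of_le' (show 3 ≤ n by omega)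
      refine le_trans ?_ (ge_L hq k)
      show 2 * Nat.gcd (k + 3) (q - 1) * q ^ ((k + 3) * (k + 2) / 2) ≤ _
      exact Nat.mul_le_mul_right _ (Nat.mul_le_mul_left _ (gcd_le_right (by omega)))
  | U n =>
    obtain ⟨hn, hn2⟩ := hok
    by_cases h3 : 3 ≤ q
    · obtain ⟨k, rfl⟩ := Nat.exists_eq_add_of_le' hn
      refine le_trans ?_ (ge_U hq 3 (ge_U3 h3) (by norm_num) k)
      show 2 * Nat.gcd (k + 3) (q + 1) * q ^ ((k + 3) * (k + 2) / 2) ≤ _
      exact Nat.mul_le_mul_right _ (Nat.mul_le_mul_left _ (gcd_le_right (by omega)))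
    · have hq2 : q = 2 := by omega
      have hn4 : 4 ≤ n := by
        by_contra hcon
        exact h3 (hn2 (by omega))
      obtain ⟨k, rfl⟩ := Nat.exists_eq_add_of_le' hn4
      rw [hq2]
      refine le_trans ?_ (ge_U (q := 2) (by norm_num) 4 (by decide) (by norm_num) k)
      show 2 * Nat.gcd (k + 4) (2 + 1) * 2 ^ ((k + 4) * (k + 3) / 2) ≤ _
      exact Nat.mul_le_mul_right _ (Nat.mul_le_mul_left _ (gcd_le_right (by omega)))
  | C m =>
    obtain ⟨hm, hm2⟩ := hok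
    by_cases h3 : 3 ≤ q
    · obtain ⟨k, rfl⟩ := Nat.exists_eq_add_of_le' hm
      refine le_trans ?_ (ge_C hq 2 4 ?_ k)
      · show 2 * Nat.gcd 2 (q - 1) * q ^ ((k + 2) ^ 2) ≤ _
        exact Nat.mul_le_mul_right _ (by have := gcd_le_left (a := 2) (b := q - 1) (by norm_num); omega)
      · simp only [prod_range_succ, prod_range_zero, one_mul, zero_add, mul_one, Nat.reduceAdd, Nat.reduceMul, Nat.reducePow]
        have h4 : 9 ≤ q ^ 2 := by nlinarith
        have h5 : q ^ 4 = q ^ 2 * q ^ 2 := by ring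
        rw [h5]
        obtain ⟨t, ht⟩ := Nat.exists_eq_add_of_le' h4
        rw [ht]
        have h6 : t + 9 - 1 = t + 8 := rfl
        have h7 : (t + 9) * (t + 9) - 1 = (t + 8) * (t + 10) := by
          have : (t + 9) * (t + 9) = (t + 8) * (t + 10) + 1 := by ring
          omega
        rw [h6, h7]
        nlinarith
    · have hq2 : q = 2 := by omega
      have hm3 : 3 ≤ m := by
        by_contra hcon
        exact h3 (hm2 (by omega))
      obtain ⟨k, rfl⟩ := Nat.exists_eq_add_of_le' hm3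
      rw [hq2]
      refine le_trans ?_ (ge_C (q := 2) (by norm_num) 3 2 (by decide) k)
      show 2 * Nat.gcd 2 (2 - 1) * 2 ^ ((k + 3) ^ 2) ≤ _
      norm_num
  | D m =>
    obtain ⟨k, rfl⟩ := Nat.exists_eq_add_of_le' (show 4 ≤ m from hok)
    show 2 * Nat.gcd 4 (q ^ (k + 4) - 1) * q ^ ((k + 4) * (k + 3)) ≤ (q ^ (k + 4) - 1) * ∏ i ∈ range (k + 3), (q ^ (2 * (i + 1)) - 1)
    have h1 := ge_D' hq (k + 2)
    have h2 : Nat.gcd 4 (q ^ (k + 4) - 1) ≤ 4 := gcd_le_left (by norm_num)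
    have h3 : 16 ≤ q ^ (k + 4) := (Nat.pow_le_pow_left hq 4).trans (Nat.pow_le_pow_right (by omega) (by omega))
    have e : (k + 2 + 1) * (k + 2 + 2) = (k + 4) * (k + 3) := by ring
    rw [e] at h1
    change 2 * q ^ ((k + 4) * (k + 3)) ≤ 3 * ∏ i ∈ range (k + 3), (q ^ (2 * (i + 1)) - 1) at h1
    generalize q ^ ((k + 4) * (k + 3)) = N at *
    generalize ∏ i ∈ range (k + 3), (q ^ (2 * (i + 1)) - 1) = Pk at *
    calc 2 * Nat.gcd 4 (q ^ (k + 4) - 1) * N ≤ 8 * N := Nat.mul_le_mul_right _ (by omega)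
      _ ≤ 15 * Pk := by omega
      _ ≤ _ := Nat.mul_le_mul_right _ (by omega)
  | DD m =>
    obtain ⟨k, rfl⟩ := Nat.exists_eq_add_of_le' (show 4 ≤ m from hok)
    show 2 * Nat.gcd 4 (q ^ (k + 4) + 1) * q ^ ((k + 4) * (k + 3)) ≤ (q ^ (k + 4) + 1) * ∏ i ∈ range (k + 3), (q ^ (2 * (i + 1)) - 1)
    have h1 := ge_D' hq (k + 2)
    have h2 : Nat.gcd 4 (q ^ (k + 4) + 1) ≤ 4 := gcd_le_left (by norm_num)
    have h3 : 16 ≤ q ^ (k + 4) := (Nat.pow_le_pow_left hq 4).trans (Nat.pow_le_pow_right (by omega) (by omega))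
    have e : (k + 2 + 1) * (k + 2 + 2) = (k + 4) * (k + 3) := by ring
    rw [e] at h1
    change 2 * q ^ ((k + 4) * (k + 3)) ≤ 3 * ∏ i ∈ range (k + 3), (q ^ (2 * (i + 1)) - 1) at h1
    generalize q ^ ((k + 4) * (k + 3)) = N at *
    generalize ∏ i ∈ range (k + 3), (q ^ (2 * (i + 1)) - 1) = Pk at *
    calc 2 * Nat.gcd 4 (q ^ (k + 4) + 1) * N ≤ 8 * N := Nat.mul_le_mul_right _ (by omega)
      _ ≤ 15 * Pk := by omega
      _ ≤ _ := Nat.mul_le_mul_right _ (by omega)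
  | G2 =>
    show 2 * 1 * q ^ 6 ≤ (q ^ 2 - 1) * (q ^ 6 - 1)
    have h1 := list_ge (q := q) [(q ^ 2 - 1, 2), (q ^ 6 - 1, 6)] (by
      simp only [List.mem_cons, List.not_mem_nil, or_false]
      rintro x (rfl | rfl) <;> exact three_sub hq (by norm_num))
    simp only [List.length_cons, List.length_nil, List.map_cons, List.map_nil, List.sum_cons, List.sum_nil, List.prod_cons, List.prod_nil, mul_one] at h1
    exact fin_ge (r := 2) (s := 2) hq (by rw [← pow_add]; simpa only [mul_assoc, Nat.reduceAdd, zero_add, add_zero] using h1) (by norm_num)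
  | F4 =>
    show 2 * 1 * q ^ 24 ≤ (q ^ 2 - 1) * (q ^ 6 - 1) * (q ^ 8 - 1) * (q ^ 12 - 1)
    have h1 := list_ge (q := q) [(q ^ 2 - 1, 2), (q ^ 6 - 1, 6), (q ^ 8 - 1, 8), (q ^ 12 - 1, 12)] (by
      simp only [List.mem_cons, List.not_mem_nil, or_false]
      rintro x (rfl | rfl | rfl | rfl) <;> exact three_sub hq (by norm_num))
    simp only [List.length_cons, List.length_nil, List.map_cons, List.map_nil, List.sum_cons, List.sum_nil, List.prod_cons, List.prod_nil, mul_one] at h1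
    exact fin_ge (r := 4) (s := 4) hq (by rw [← pow_add]; simpa only [mul_assoc, Nat.reduceAdd, zero_add, add_zero] using h1) (by norm_num)
  | E6 =>
    show 2 * Nat.gcd 3 (q - 1) * q ^ 36 ≤ (q ^ 2 - 1) * (q ^ 5 - 1) * (q ^ 6 - 1) * (q ^ 8 - 1) * (q ^ 9 - 1) * (q ^ 12 - 1)
    have h1 := list_ge (q := q) [(q ^ 2 - 1, 2), (q ^ 5 - 1, 5), (q ^ 6 - 1, 6), (q ^ 8 - 1, 8), (q ^ 9 - 1, 9), (q ^ 12 - 1, 12)] (by
      simp only [List.mem_cons, List.not_mem_nil, or_false]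
      rintro x (rfl | rfl | rfl | rfl | rfl | rfl) <;> exact three_sub hq (by norm_num))
    simp only [List.length_cons, List.length_nil, List.map_cons, List.map_nil, List.sum_cons, List.sum_nil, List.prod_cons, List.prod_nil, mul_one] at h1
    refine le_trans (Nat.mul_le_mul_right (m := 6) _ ?_) (fin_ge (r := 6) (s := 6) hq (by rw [← pow_add]; simpa only [mul_assoc, Nat.reduceAdd, zero_add, add_zero] using h1) (by norm_num))
    have := gcd_le_left (a := 3) (b := q - 1) (by norm_num)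
    omega
  | E7 =>
    show 2 * Nat.gcd 2 (q - 1) * q ^ 63 ≤ (q ^ 2 - 1) * (q ^ 6 - 1) * (q ^ 8 - 1) * (q ^ 10 - 1) * (q ^ 12 - 1) * (q ^ 14 - 1) * (q ^ 18 - 1)
    have h1 := list_ge (q := q) [(q ^ 2 - 1, 2), (q ^ 6 - 1, 6), (q ^ 8 - 1, 8), (q ^ 10 - 1, 10), (q ^ 12 - 1, 12), (q ^ 14 - 1, 14), (q ^ 18 - 1, 18)] (by
      simp only [List.mem_cons, List.not_mem_nil, or_false]
      rintro x (rfl | rfl | rfl | rfl | rfl | rfl | rfl) <;> exact three_sub hq (by norm_num))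
    simp only [List.length_cons, List.length_nil, List.map_cons, List.map_nil, List.sum_cons, List.sum_nil, List.prod_cons, List.prod_nil, mul_one] at h1
    refine le_trans (Nat.mul_le_mul_right (m := 4) _ ?_) (fin_ge (r := 7) (s := 7) hq (by rw [← pow_add]; simpa only [mul_assoc, Nat.reduceAdd, zero_add, add_zero] using h1) (by norm_num))
    have := gcd_le_left (a := 2) (b := q - 1) (by norm_num)
    omega
  | E8 =>
    show 2 * 1 * q ^ 120 ≤ (q ^ 2 - 1) * (q ^ 8 - 1) * (q ^ 12 - 1) * (q ^ 14 - 1) * (q ^ 18 - 1) * (q ^ 20 - 1) * (q ^ 24 - 1) * (q ^ 30 - 1)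
    have h1 := list_ge (q := q) [(q ^ 2 - 1, 2), (q ^ 8 - 1, 8), (q ^ 12 - 1, 12), (q ^ 14 - 1, 14), (q ^ 18 - 1, 18), (q ^ 20 - 1, 20), (q ^ 24 - 1, 24), (q ^ 30 - 1, 30)] (by
      simp only [List.mem_cons, List.not_mem_nil, or_false]
      rintro x (rfl | rfl | rfl | rfl | rfl | rfl | rfl | rfl) <;> exact three_sub hq (by norm_num))
    simp only [List.length_cons, List.length_nil, List.map_cons, List.map_nil, List.sum_cons, List.sum_nil, List.prod_cons, List.prod_nil, mul_one] at h1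
    exact fin_ge (r := 8) (s := 8) hq (by rw [← pow_add]; simpa only [mul_assoc, Nat.reduceAdd, zero_add, add_zero] using h1) (by norm_num)
  | TE6 =>
    show 2 * Nat.gcd 3 (q + 1) * q ^ 36 ≤ (q ^ 2 - 1) * (q ^ 5 + 1) * (q ^ 6 - 1) * (q ^ 8 - 1) * (q ^ 9 + 1) * (q ^ 12 - 1)
    have h1 := list_ge (q := q) [(q ^ 2 - 1, 2), (q ^ 5 + 1, 5), (q ^ 6 - 1, 6), (q ^ 8 - 1, 8), (q ^ 9 + 1, 9), (q ^ 12 - 1, 12)] (by
      simp only [List.mem_cons, List.not_mem_nil, or_false]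
      rintro x (rfl | rfl | rfl | rfl | rfl | rfl) <;> first | exact three_sub hq (by norm_num) | exact three_add)
    simp only [List.length_cons, List.length_nil, List.map_cons, List.map_nil, List.sum_cons, List.sum_nil, List.prod_cons, List.prod_nil, mul_one] at h1
    refine le_trans (Nat.mul_le_mul_right (m := 6) _ ?_) (fin_ge (r := 6) (s := 6) hq (by rw [← pow_add]; simpa only [mul_assoc, Nat.reduceAdd, zero_add, add_zero] using h1) (by norm_num))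
    have := gcd_le_left (a := 3) (b := q + 1) (by norm_num)
    omega
  | TD4 =>
    show 2 * 1 * q ^ 12 ≤ (q ^ 2 - 1) * (q ^ 6 - 1) * (q ^ 8 + q ^ 4 + 1)
    have h1 := list_ge (q := q) [(q ^ 2 - 1, 2), (q ^ 6 - 1, 6), (q ^ 8 + q ^ 4 + 1, 8)] (by
      simp only [List.mem_cons, List.not_mem_nil, or_false]
      rintro x (rfl | rfl | rfl)
      · exact three_sub hq (by norm_num)
      · exact three_sub hq (by norm_num)
      · show 3 * q ^ 8 ≤ 4 * (q ^ 8 + q ^ 4 + 1)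
        omega)
    simp only [List.length_cons, List.length_nil, List.map_cons, List.map_nil, List.sum_cons, List.sum_nil, List.prod_cons, List.prod_nil, mul_one] at h1
    exact fin_ge (r := 3) (s := 4) hq (by rw [← pow_add]; simpa only [mul_assoc, Nat.reduceAdd, zero_add, add_zero] using h1) (by norm_num)
  | Sz =>
    obtain ⟨hp2, hodd, hf3⟩ := hok
    have h8 : 8 ≤ q := by
      rw [hqdef, hp2]
      exact Nat.pow_le_pow_right (n := 2) (by norm_num) hf3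
    show 2 * 1 * q ^ 2 ≤ (q - 1) * (q ^ 2 + 1)
    exact Nat.mul_le_mul (by omega) (by omega)
  | Ree =>
    obtain ⟨hp3, hodd, hf3⟩ := hok
    have h8 : 27 ≤ q := by
      rw [hqdef, hp3]
      exact Nat.pow_le_pow_right (n := 3) (by norm_num) hf3
    show 2 * 1 * q ^ 3 ≤ (q - 1) * (q ^ 3 + 1)
    exact Nat.mul_le_mul (by omega) (by omega)
  | TF4 =>
    obtain ⟨hp2, hodd, hf3⟩ := hok
    have h8 : 8 ≤ q := by
      rw [hqdef, hp2]
      exact Nat.pow_le_pow_right (n := 2) (by norm_num) hf3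
    show 2 * 1 * q ^ 12 ≤ (q - 1) * (q ^ 3 + 1) * (q ^ 4 - 1) * (q ^ 6 + 1)
    calc 2 * 1 * q ^ 12 = 2 * q ^ 3 * q ^ 3 * q ^ 6 := by ring
      _ ≤ (q - 1) * (q ^ 3 + 1) * (q ^ 4 - 1) * (q ^ 6 + 1) :=
        Nat.mul_le_mul (Nat.mul_le_mul (Nat.mul_le_mul (by omega) (by omega)) (sub_one_ge hq)) (by omega)

/-- in the defining characteristic -/
theorem self_ge {X : Sh} {p f M : ℕ} (h : Real X p f M) : 2 * ((p ^ f) ^ NN X) ^ 2 ≤ M := by
  have h1 := num_ge h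
  have h2 := h.eq
  have hd : 0 < dd X (p ^ f) := Nat.pos_of_ne_zero h.dd_ne
  refine Nat.le_of_mul_le_mul_left ?_ hd
  rw [h2]
  calc dd X (p ^ f) * (2 * ((p ^ f) ^ NN X) ^ 2) = (p ^ f) ^ NN X * (2 * dd X (p ^ f) * (p ^ f) ^ NN X) := by ring
    _ ≤ _ := Nat.mul_le_mul_left _ h1

end Cfsg.Agent.H615.DM
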