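import Cfsg.Agent.H615.DM.NumGe
import Cfsg.Agent.H902.AltLie
import Cfsg.Agent.H902.Special
import Cfsg.Agent.H902.Names

/-!
# `2 |S|_r² ≤ |S|` for the known simple groups (S4907, task 4101; helper615)
-/

set_option autoImplicit false
set_option linter.style.longLine false

namespace Cfsg.Agent.H615.DM

open Finset Cfsg.Agent.H902.Art Cfsg.Agent.H902.Spec

theorem P60 {r : ℕ} (hr : r.Prime) (hr5 : r ≠ 5) : 2 * (P r 60) ^ 2 ≤ 60 := by
  by_cases h2 : r = 2
  · subst h2
    have h1 : P 2 60 = 2 ^ 2 := P_pow_self (k := 2) (a := 15) Nat.prime_two (by norm_num)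
    rw [h1]
    norm_num
  by_cases h3 : r = 3
  · subst h3
    have h1 : P 3 60 = 3 ^ 1 := P_pow_self (k := 1) (a := 20) Nat.prime_three (by norm_num)
    rw [h1]
    norm_num
  · have h1 : ¬ r ∣ 60 := by
      intro hd
      have e : 60 = 2 ^ 2 * (3 * 5) := by norm_num
      rw [e] at hd
      rcases (Nat.Prime.dvd_mul hr).1 hd with h | h
      · exact h2 ((Nat.prime_dvd_prime_iff_eq hr Nat.prime_two).1 (hr.dvd_of_dvd_pow h))
      · rcases (Nat.Prime.dvd_mul hr).1 h with h | h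
        · exact h3 ((Nat.prime_dvd_prime_iff_eq hr Nat.prime_three).1 h)
        · exact hr5 ((Nat.prime_dvd_prime_iff_eq hr Nat.prime_five).1 h)
    rw [P_eq_one h1]
    norm_num

theorem L2_le {p f M : ℕ} (h : Real (.L 2) p f M) {r : ℕ} (hr : r.Prime) (hrp : r ≠ p) : 2 * (P r M) ^ 2 ≤ M := by
  have hq4 : 4 ≤ p ^ f := h.ok.2 rfl
  have hrq := h.not_dvd_q hr hrp
  have hoth := h.P_other hr hrp
  have heq := h.eq
  by_cases h5 : p ^ f = 5
  · rw [h5] at heq hrq
    have e1 : dd (.L 2) 5 = 2 := rfl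
    have e2 : 5 ^ NN (.L 2) * num (.L 2) 5 = 120 := by decide
    rw [e1, e2] at heq
    have hM : M = 60 := by omega
    rw [hM]
    exact P60 hr fun h => hrq (h ▸ dvd_rfl)
  set q := p ^ f with hqdef
  have e1 : dd (.L 2) q = Nat.gcd 2 (q - 1) := rfl
  have e2 : num (.L 2) q = q ^ 2 - 1 := by
    show ∏ i ∈ range 1, (q ^ (i + 2) - 1) = q ^ 2 - 1
    rw [prod_range_one]
  have e3 : NN (.L 2) = 1 := rfl
  have e4 : q ^ 2 - 1 = (q - 1) * (q + 1) := by
    obtain ⟨t, ht⟩ := Nat.exists_eq_add_of_le' (show 1 ≤ q by omega)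
    rw [ht, Nat.add_sub_cancel]
    have : (t + 1) ^ 2 = t * (t + 1 + 1) + 1 := by ring
    rw [this, Nat.add_sub_cancel]
  rw [e1, e2, e3, pow_one] at heq
  rw [e1, e2] at hoth
  -- the bound `P r M ≤ q + 1`
  have hP : P r M ≤ q + 1 := by
    by_cases hr2 : r = 2
    · subst hr2
      have hodd : Odd q := Nat.not_even_iff_odd.1 fun h => hrq h.two_dvd
      have h1 := P_two_sq_sub_one_le (by omega : 3 ≤ q) hodd
      have h3 : Nat.gcd 2 (q - 1) = 2 := by
        rcases hodd with ⟨k, hk⟩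
        apply Nat.gcd_eq_left
        exact ⟨k, by omega⟩
      have h4 : P 2 2 = 2 := by
        have := P_pow_self (r := 2) (k := 1) (a := 1) Nat.prime_two (by norm_num)
        simpa using this
      rw [h3, h4] at hoth
      omega
    · have h1 := P_sq_sub_one_le hr hr2 (by omega : 2 ≤ q) (le_refl 1)
      rw [mul_one, pow_one] at h1
      have h2 := h.P_other_le hr hrp
      rw [← hqdef, e2] at h2
      omega
  have hsize : 2 * (q + 1) ^ 2 ≤ M := by
    rcases Nat.even_or_odd q with he | ho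
    · have h3 : Nat.gcd 2 (q - 1) = 1 := by
        obtain ⟨k, hk⟩ := he
        exact Nat.coprime_two_left.2 ⟨k - 1, by omega⟩
      rw [h3, e4] at heq
      obtain ⟨t, ht⟩ := Nat.exists_eq_add_of_le' hq4
      rw [ht] at heq ⊢
      have h8 : t + 4 - 1 = t + 3 := rfl
      rw [h8] at heq
      nlinarith
    · have h3 : Nat.gcd 2 (q - 1) = 2 := by
        rcases ho with ⟨k, hk⟩
        apply Nat.gcd_eq_left
        exact ⟨k, by omega⟩
      rw [h3, e4] at heq
      have h7 : 7 ≤ q := by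
        rcases ho with ⟨k, hk⟩
        omega
      obtain ⟨t, ht⟩ := Nat.exists_eq_add_of_le' h7
      rw [ht] at heq ⊢
      have h8 : t + 7 - 1 = t + 6 := rfl
      rw [h8] at heq
      nlinarith
  calc 2 * P r M ^ 2 ≤ 2 * (q + 1) ^ 2 := Nat.mul_le_mul_left _ (Nat.pow_le_pow_left hP 2)
    _ ≤ M := hsize

/-- the groups of Lie type -/
theorem lie_sq {X : Sh} {p f M : ℕ} (h : Real X p f M) {r : ℕ} (hr : r.Prime) : 2 * (P r M) ^ 2 ≤ M := by
  have hself := self_ge h
  by_cases hrp : r = p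
  · subst hrp
    rw [h.P_self]
    exact hself
  by_cases hL : X = .L 2
  · subst hL
    exact L2_le h hr hrp
  by_cases h33 : X = .U 3 ∧ p ^ f = 3 ∧ r = 2
  · obtain ⟨rfl, hq, rfl⟩ := h33
    have heq := h.eq
    rw [hq] at heq
    have e1 : dd (.U 3) 3 = 1 := by decide
    have e2 : 3 ^ NN (.U 3) * num (.U 3) 3 = 6048 := by decide
    rw [e1, e2, one_mul] at heq
    rw [heq]
    have h1 : P 2 6048 = 2 ^ 5 := P_pow_self (k := 5) (a := 189) Nat.prime_two (by norm_num)
    rw [h1]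
    norm_num
  by_cases h42 : X = .U 4 ∧ p ^ f = 2 ∧ r = 3
  · obtain ⟨rfl, hq, rfl⟩ := h42
    have heq := h.eq
    rw [hq] at heq
    have e1 : dd (.U 4) 2 = 1 := by decide
    have e2 : 2 ^ NN (.U 4) * num (.U 4) 2 = 25920 := by decide
    rw [e1, e2, one_mul] at heq
    rw [heq]
    have h1 : P 3 25920 = 3 ^ 4 := P_pow_self (k := 4) (a := 320) Nat.prime_three (by norm_num)
    rw [h1]
    norm_num
  have hdom := h.dom hL hr hrp h33 h42
  calc 2 * P r M ^ 2 ≤ 2 * ((p ^ f) ^ NN X) ^ 2 := Nat.mul_le_mul_left _ (Nat.pow_le_pow_left hdom 2)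
    _ ≤ M := hself

theorem of_valid {l : List (ℕ × ℕ)} {N : ℕ} (hv : Cfsg.Agent.OrdDiv.valid l N = true)
    (hc : ∀ y ∈ l, 2 * (y.1 ^ y.2) ^ 2 ≤ N) (h2 : 2 ≤ N) {r : ℕ} (hr : r.Prime) : 2 * (P r N) ^ 2 ≤ N := by
  by_cases h0 : N.factorization r = 0
  · rw [P, h0]
    simpa using h2
  · obtain ⟨k, hk, hle⟩ := Cfsg.Agent.OrdDiv.exists_pair hv hr (j := N.factorization r) (by omega) (Nat.ordProj_dvd _ _)
    refine le_trans (Nat.mul_le_mul_left _ (Nat.pow_le_pow_left ?_ 2)) (hc _ hk)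
    exact Nat.pow_le_pow_right hr.pos hle

theorem spor_check : ∀ x ∈ Cfsg.Agent.OrdDiv.spor, ∀ y ∈ fac x.2, 2 * (y.1 ^ y.2) ^ 2 ≤ x.2 := by decide +kernel

theorem spor_two : ∀ x ∈ Cfsg.Agent.OrdDiv.spor, 2 ≤ x.2 := by decide +kernel

/-- the sporadic groups and the Tits group -/
theorem spor_sq {x : Cfsg.Agent.OrdDiv.Grp × ℕ} (hx : x ∈ Cfsg.Agent.OrdDiv.spor) {r : ℕ} (hr : r.Prime) : 2 * (P r x.2) ^ 2 ≤ x.2 :=
  of_valid (spor_valid x hx) (spor_check x hx) (spor_two x hx) hr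

theorem grow2 (k : ℕ) : 4 ^ (k + 7) ≤ (k + 8).factorial := by
  induction k with
  | zero => decide
  | succ k ih =>
    rw [show k + 1 + 8 = (k + 8) + 1 by ring, Nat.factorial_succ, show k + 1 + 7 = (k + 7) + 1 by ring, pow_succ']
    exact Nat.mul_le_mul (by omega) ih

theorem grow3 (k : ℕ) : 4 * 3 ^ (k + 6) ≤ (k + 7).factorial := by
  induction k with
  | zero => decide
  | succ k ih =>
    rw [show k + 1 + 7 = (k + 7) + 1 by ring, Nat.factorial_succ, show k + 1 + 6 = (k + 6) + 1 by ring, pow_succ']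
    calc 4 * (3 * 3 ^ (k + 6)) = 3 * (4 * 3 ^ (k + 6)) := by ring
      _ ≤ _ := Nat.mul_le_mul (by omega) ih

/-- `r² ≤ 3^{r-1}` for odd `r` -/
theorem sq_le_three (r : ℕ) (hr : 3 ≤ r) : r ^ 2 ≤ 3 ^ (r - 1) := by
  induction r, hr using Nat.le_induction with
  | base => norm_num
  | succ n hn ih =>
    rw [show n + 1 - 1 = (n - 1) + 1 by omega]
    have h1 : (n + 1) ^ 2 ≤ n ^ 2 * 3 := by nlinarith
    calc (n + 1) ^ 2 ≤ n ^ 2 * 3 := h1
      _ ≤ 3 ^ (n - 1) * 3 := Nat.mul_le_mul_right _ ih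
      _ = 3 ^ (n - 1 + 1) := by rw [pow_succ]

/-- the alternating groups -/
theorem alt_sq {n M : ℕ} (hn : 5 ≤ n) (hM : 2 * M = n.factorial) {r : ℕ} (hr : r.Prime) : 2 * (P r M) ^ 2 ≤ M := by
  have hM0 : M ≠ 0 := by
    rintro rfl
    exact (Nat.factorial_pos n).ne' hM.symm
  rcases Nat.lt_or_ge n 8 with h8 | h8
  · interval_cases n
    · have h1 : M = 60 := by
        have : Nat.factorial 5 = 120 := rfl
        omega
      rw [h1]
      exact of_valid (l := [(2, 2), (3, 1), (5, 1)]) (by decide) (by decide) (by norm_num) hr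
    · have h1 : M = 360 := by
        have : Nat.factorial 6 = 720 := rfl
        omega
      rw [h1]
      exact of_valid (l := [(2, 3), (3, 2), (5, 1)]) (by decide) (by decide) (by norm_num) hr
    · have h1 : M = 2520 := by
        have : Nat.factorial 7 = 5040 := rfl
        omega
      rw [h1]
      exact of_valid (l := [(2, 3), (3, 2), (5, 1), (7, 1)]) (by decide) (by decide) (by norm_num) hr
  have hv := fact_val hr (show 1 ≤ n by omega)
  have hfac : n.factorial.factorization r = (Nat.factorization 2) r + M.factorization r := by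
    rw [← hM, Nat.factorization_mul (by norm_num) hM0, Finsupp.add_apply]
  set v := M.factorization r with hvdef
  have hP : P r M = r ^ v := rfl
  rw [hP]
  by_cases h2 : r = 2
  · subst h2
    have h22 : (Nat.factorization 2) 2 = 1 := Nat.Prime.factorization_self Nat.prime_two
    rw [hfac, h22] at hv
    obtain ⟨k, rfl⟩ := Nat.exists_eq_add_of_le' h8
    have h1 := grow2 k
    have h3 : v ≤ k + 6 := by omega
    have h4 : (2 ^ v) ^ 2 ≤ 4 ^ (k + 6) := by
      rw [← pow_mul, mul_comm, pow_mul]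
      exact Nat.pow_le_pow_right (by norm_num) h3
    have h5 : 4 ^ (k + 7) = 4 * 4 ^ (k + 6) := by rw [← pow_succ']
    omega
  · have hr3 : 3 ≤ r := by
      have := hr.two_le
      omega
    have h22 : (Nat.factorization 2) r = 0 := by
      rw [Nat.Prime.factorization Nat.prime_two, Finsupp.single_apply, if_neg (Ne.symm h2)]
    rw [hfac, h22, zero_add] at hv
    obtain ⟨k, rfl⟩ := Nat.exists_eq_add_of_le' (show 7 ≤ n by omega)
    have h1 := grow3 k
    have h4 : (r ^ v) ^ 2 ≤ 3 ^ (k + 6) := by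
      calc (r ^ v) ^ 2 = (r ^ 2) ^ v := by rw [← pow_mul, mul_comm, pow_mul]
        _ ≤ (3 ^ (r - 1)) ^ v := Nat.pow_le_pow_left (sq_le_three r hr3) v
        _ = 3 ^ ((r - 1) * v) := by rw [← pow_mul]
        _ ≤ 3 ^ (k + 6) := Nat.pow_le_pow_right (by norm_num) (by omega)
    omega

/-- the known nonabelian simple groups -/
theorem nam_sq {S : Type*} [Group S] (h : Cfsg.Agent.H902.Names.Nam S) {r : ℕ} (hr : r.Prime) :
    2 * (P r (Nat.card S)) ^ 2 ≤ Nat.card S := by
  cases h with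
  | alt n hn h hc => exact alt_sq hn hc hr
  | lie g X p f hg h hc => exact lie_sq hc hr
  | spor x hx h hc =>
    rw [hc]
    exact spor_sq hx hr

end Cfsg.Agent.H615.DM
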