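import Cfsg.Agent.H615.DM.SqLe
import Cfsg.Agent.OrdDiv.Table
import Cfsg.Agent.S0000
import Cfsg.Agent.H700.DM.Defs

/-!
# `2 |S|_p² ≤ |S|` for every nonabelian finite simple group `S` (S4907, task 4101; helper615)
-/

set_option autoImplicit false

namespace Cfsg.Agent.H615.DM

open Cfsg Cfsg.Agent.H700.DM

universe u

/-- (N1) -/
theorem two_mul_sq_le {S : Type u} [Group S] [Finite S] [IsSimpleGroup S] (hna : ¬ ∀ a b : S, a * b = b * a)
    {p : ℕ} (hp : p.Prime) : 2 * pt p S ^ 2 ≤ Nat.card S :=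
  nam_sq (Cfsg.Agent.H902.Names.exists_nam Cfsg.Agent.OrdDiv.table Cfsg.Agent.S0000.result hna) hp

end Cfsg.Agent.H615.DM
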